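import Cfsg.Agent.H705.ComOne
import Cfsg.Agent.H705.ComLocal

/-!
# Groups with a split (B,N)-pair of rank one (helper705)
-/

set_option autoImplicit false

namespace Cfsg.Agent.H705

open Cfsg Cfsg.Agent.LieExceptional.BNPairCore Cfsg.Agent.Tits.Core Cfsg.Agent.Tits.Core.Bldg Cfsg.Agent.Tits.OfBN
  Cfsg.Agent.Schreier.BNSch Cfsg.Agent.Tits.OppRes Cfsg.Agent.FixBN Cfsg.Agent.FixBN.OfBN

variable {K : Type*} [Group K] [Finite K] {r : ℕ} [hr : Fact r.Prime] {P : Cfsg.BNPair K} {U : Subgroup K}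

section

variable [hN : ((P.B ⊓ P.N).subgroupOf P.N).Normal]
variable {I : Type*} {M : CoxeterMatrix I} (e : I ≃ P.S) (cs : CoxeterSystem M (WP P))
  (hcs : ∀ i, cs.simple i = QuotientGroup.mk (⟨(e i : K), P.subset (e i).2⟩ : P.N))

/-- in rank one distinct chambers are opposite -/
theorem opp_of_ne [Subsingleton I] {x y : K ⧸ P.B} (h : x ≠ y) : (bldg P e cs hcs).Opp x y := by
  have hI : Finite I := finite_I e
  have hC : Cox cs := inferInstance
  set Δ := bldg P e cs hcs with hΔ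
  show Δ.δ x y = w0 cs
  have hne : Δ.δ x y ≠ 1 := fun h1 => h ((Δ.eq_one x y).1 h1)
  obtain ⟨k, hk⟩ := cs.exists_rightDescent_of_ne_one hne
  refine hC.eq_wJ_of_descents (J := Set.univ) (by rw [WJ_univ]; trivial) ?_
  intro j _
  rw [Subsingleton.elim j k]
  have h1 := cs.isRightDescent_iff.1 hk
  omega

end

/-- The rank one structure of a split (B,N)-pair of rank one. -/
theorem exists_one (S : Split P r U) (hne : P.S.Nonempty) (h1 : ∀ s t : P.S, s = t) :
    ∃ O : One r K (K ⧸ P.B), (∀ x, O.U x = UU P U x) ∧ FaithfulSMul K (K ⧸ P.B) ∧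
      ∀ a : MulAut K, ∃ θ : K ⧸ P.B → K ⧸ P.B, Function.Injective θ ∧ ∀ (g : K) x, θ (g • x) = a g • θ x := by
  have hN : ((P.B ⊓ P.N).subgroupOf P.N).Normal := normal_subgroupOf P
  obtain ⟨M, cs, hcs⟩ := S0320.result P
  have hsub : Subsingleton P.S := ⟨h1⟩
  have hI : Finite P.S := finite_I (Equiv.refl P.S)
  have hC : Cox cs := inferInstance
  set Δ := bldg P (Equiv.refl P.S) cs hcs with hΔ
  let Y := OfBN.sys (Equiv.refl P.S) cs hcs S
  have hopp : ∀ {x y : K ⧸ P.B}, x ≠ y → Δ.Opp x y := fun h => opp_of_ne (Equiv.refl P.S) cs hcs h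
  have hth := thick P (Equiv.refl P.S) cs hcs
  obtain ⟨s, hs⟩ := hne
  refine ⟨{ U := UU P U
            fix := fun x u hu => fix S hu
            isP := fun x => isP S x
            max := fun x V hV h => OfBN.max S x V hV h
            trans := fun x y z hy hz => OfBN.trans S ((hopp hy).trans (hopp hz).symm)
            free := fun x y hy u hu huy => OfBN.free (Equiv.refl P.S) cs hcs S (hopp hy) hu huy
            three := ?_ }, fun x => rfl, faithful P S.core, ?_⟩
  · intro x y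
    obtain ⟨z₁, z₂, hz, hz1, hz2⟩ := hth x ⟨s, hs⟩
    have hx1 := Δ.ne_of_δ_simple hz1
    have hx2 := Δ.ne_of_δ_simple hz2
    by_cases h : z₁ = y
    · exact ⟨z₂, hx2.symm, fun h' => hz (h.trans h'.symm)⟩
    · exact ⟨z₁, hx1.symm, h⟩
  · intro a
    obtain ⟨θ, φ, σ, h2, -, -, -⟩ := H864.TrAct.exists_act S (Equiv.refl P.S) cs hcs a
    exact ⟨θ, θ.injective, h2⟩

end Cfsg.Agent.H705
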